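import Mathlib

/-!
# CT-groups: the matrix side (`SL₂` and `PSL₂` in characteristic two)

* `ct_mat_comm`: two `2 × 2` matrices over a field commuting with a non-scalar matrix commute.
* `ct_sl2_center_eq_bot`: in characteristic two the centre of `SL₂(F)` is trivial.
* `ct_pslEquiv`: hence `PSL₂(F) ≃* SL₂(F)`.
* `ct_sl2_trans`, `ct_psl2_trans`: commuting is transitive on the non-identity elements.
-/

set_option autoImplicit false

namespace Cfsg.Agent.Lib.Helper76.CT

open Matrix

/-- Two `2 × 2` matrices over a field that commute with a non-scalar matrix commute with each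
other. -/
theorem ct_mat_comm {F : Type*} [Field F] (A B C : Matrix (Fin 2) (Fin 2) F)
    (hB : ¬ (B 0 1 = 0 ∧ B 1 0 = 0 ∧ B 0 0 = B 1 1)) (hAB : A * B = B * A)
    (hBC : B * C = C * B) : A * C = C * A := by
  have eA := Matrix.eta_fin_two A
  have eB := Matrix.eta_fin_two B
  have eC := Matrix.eta_fin_two C
  generalize A 0 0 = a1 at *
  generalize A 0 1 = a2 at *
  generalize A 1 0 = a3 at *
  generalize A 1 1 = a4 at *
  generalize B 0 0 = p at *
  generalize B 0 1 = q at *
  generalize B 1 0 = r at *
  generalize B 1 1 = s at *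
  generalize C 0 0 = c1 at *
  generalize C 0 1 = c2 at *
  generalize C 1 0 = c3 at *
  generalize C 1 1 = c4 at *
  subst eA eB eC
  rw [Matrix.mul_fin_two, Matrix.mul_fin_two] at hAB hBC
  have H00 := congrFun (congrFun hAB 0) 0
  have H01 := congrFun (congrFun hAB 0) 1
  have H10 := congrFun (congrFun hAB 1) 0
  have K00 := congrFun (congrFun hBC 0) 0
  have K01 := congrFun (congrFun hBC 0) 1
  have K10 := congrFun (congrFun hBC 1) 0
  simp only [Matrix.of_apply, Matrix.cons_val_zero, Matrix.cons_val_one, Matrix.cons_val',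
    Matrix.empty_val', Matrix.cons_val_fin_one] at H00 H01 H10 K00 K01 K10
  have H1 : a2 * r = q * a3 := by linear_combination H00
  have H2 : q * (a1 - a4) = a2 * (p - s) := by linear_combination H01
  have H3 : a3 * (p - s) = r * (a1 - a4) := by linear_combination H10
  have K1 : c2 * r = q * c3 := by linear_combination -K00
  have K2 : q * (c1 - c4) = c2 * (p - s) := by linear_combination -K01
  have K3 : c3 * (p - s) = r * (c1 - c4) := by linear_combination -K10
  have T : a2 * c3 = c2 * a3 ∧ c2 * (a1 - a4) = a2 * (c1 - c4) ∧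
      a3 * (c1 - c4) = c3 * (a1 - a4) := by
    by_cases hq : q = 0
    · by_cases hr : r = 0
      · have hps : p - s ≠ 0 := fun h => hB ⟨hq, hr, sub_eq_zero.mp h⟩
        subst hq hr
        have ha2 : a2 = 0 := by
          have : a2 * (p - s) = 0 := by linear_combination -H2
          exact (mul_eq_zero.mp this).resolve_right hps
        have ha3 : a3 = 0 := by
          have : a3 * (p - s) = 0 := by linear_combination H3
          exact (mul_eq_zero.mp this).resolve_right hps
        have hc2 : c2 = 0 := by
          have : c2 * (p - s) = 0 := by linear_combination -K2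
          exact (mul_eq_zero.mp this).resolve_right hps
        have hc3 : c3 = 0 := by
          have : c3 * (p - s) = 0 := by linear_combination K3
          exact (mul_eq_zero.mp this).resolve_right hps
        subst ha2 ha3 hc2 hc3
        simp
      · refine ⟨?_, ?_, ?_⟩
        · apply mul_left_cancel₀ hr
          linear_combination c3 * H1 - a3 * K1
        · apply mul_left_cancel₀ (mul_ne_zero hr hr)
          linear_combination (-r * c2) * H3 + (r * a2) * K3 + ((p - s) * a3) * K1
            - ((p - s) * c3) * H1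
        · apply mul_left_cancel₀ hr
          linear_combination c3 * H3 - a3 * K3
    · refine ⟨?_, ?_, ?_⟩
      · apply mul_left_cancel₀ hq
        linear_combination (-a2) * K1 + c2 * H1
      · apply mul_left_cancel₀ hq
        linear_combination c2 * H2 - a2 * K2
      · apply mul_left_cancel₀ (mul_ne_zero hq hq)
        linear_combination (q * a3) * K2 - (q * c3) * H2 - ((p - s) * c2) * H1
          + ((p - s) * a2) * K1
  obtain ⟨T1, T2, T3⟩ := T
  rw [Matrix.mul_fin_two, Matrix.mul_fin_two]
  have E1 : a1 * c1 + a2 * c3 = c1 * a1 + c2 * a3 := by linear_combination T1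
  have E2 : a1 * c2 + a2 * c4 = c1 * a2 + c2 * a4 := by linear_combination T2
  have E3 : a3 * c1 + a4 * c3 = c3 * a1 + c4 * a3 := by linear_combination T3
  have E4 : a3 * c2 + a4 * c4 = c3 * a2 + c4 * a4 := by linear_combination -T1
  rw [E1, E2, E3, E4]

/-- In characteristic two a matrix of `SL₂(F)` which is scalar is the identity. -/
theorem ct_sl2_eq_one_of_scalar {F : Type*} [Field F] (h2 : (2 : F) = 0)
    (b : Matrix.SpecialLinearGroup (Fin 2) F)
    (hb : b.1 0 1 = 0 ∧ b.1 1 0 = 0 ∧ b.1 0 0 = b.1 1 1) : b = 1 := by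
  obtain ⟨h01, h10, h00⟩ := hb
  have hdet := b.2
  rw [Matrix.det_fin_two, h01, h10, ← h00] at hdet
  have hsq : (b.1 0 0 - 1) * (b.1 0 0 - 1) = 0 := by
    linear_combination hdet - (b.1 0 0) * h2 + h2
  have h1 : b.1 0 0 = 1 := by
    rcases mul_eq_zero.mp hsq with h | h <;> exact sub_eq_zero.mp h
  apply Subtype.ext
  rw [Matrix.eta_fin_two b.1, h01, h10, ← h00, h1]
  simp [Matrix.one_fin_two]

/-- In characteristic two the centre of `SL₂(F)` is trivial. -/
theorem ct_sl2_center_eq_bot {F : Type*} [Field F] (h2 : (2 : F) = 0) :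
    Subgroup.center (Matrix.SpecialLinearGroup (Fin 2) F) = ⊥ := by
  rw [eq_bot_iff]
  intro A hA
  rw [Matrix.SpecialLinearGroup.mem_center_iff] at hA
  obtain ⟨r, -, hr⟩ := hA
  rw [Subgroup.mem_bot]
  apply ct_sl2_eq_one_of_scalar h2
  rw [← hr]
  simp

/-- In characteristic two, `PSL₂(F) ≃* SL₂(F)`. -/
noncomputable def ct_pslEquiv {F : Type*} [Field F] (h2 : (2 : F) = 0) :
    Matrix.ProjectiveSpecialLinearGroup (Fin 2) F ≃* Matrix.SpecialLinearGroup (Fin 2) F :=
  (QuotientGroup.quotientMulEquivOfEq (ct_sl2_center_eq_bot h2)).trans QuotientGroup.quotientBot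

/-- In `SL₂(F)`, characteristic two, commuting is transitive on the non-identity elements. -/
theorem ct_sl2_trans {F : Type*} [Field F] (h2 : (2 : F) = 0)
    (a b c : Matrix.SpecialLinearGroup (Fin 2) F) (hb : b ≠ 1) (hab : Commute a b)
    (hbc : Commute b c) : Commute a c := by
  have hB : ¬ (b.1 0 1 = 0 ∧ b.1 1 0 = 0 ∧ b.1 0 0 = b.1 1 1) :=
    fun h => hb (ct_sl2_eq_one_of_scalar h2 b h)
  have h1 : a.1 * b.1 = b.1 * a.1 := congrArg Subtype.val hab.eq
  have h3 : b.1 * c.1 = c.1 * b.1 := congrArg Subtype.val hbc.eq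
  exact Subtype.ext (ct_mat_comm a.1 b.1 c.1 hB h1 h3)

/-- Transitivity of commuting on the non-identity elements is transported by isomorphisms. -/
theorem ct_trans_of_equiv {G H : Type*} [Group G] [Group H] (e : G ≃* H)
    (hH : ∀ a b c : H, b ≠ 1 → Commute a b → Commute b c → Commute a c)
    (a b c : G) (hb : b ≠ 1) (hab : Commute a b) (hbc : Commute b c) : Commute a c := by
  have hb' : e b ≠ 1 := fun h => hb (e.map_eq_one_iff.mp h)
  have h := hH (e a) (e b) (e c) hb' (hab.map e) (hbc.map e)
  have h' : e (a * c) = e (c * a) := by rw [map_mul, map_mul]; exact h.eq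
  exact e.injective h'

/-- In `PSL₂(F)`, characteristic two, commuting is transitive on the non-identity elements. -/
theorem ct_psl2_trans {F : Type*} [Field F] (h2 : (2 : F) = 0)
    (a b c : Matrix.ProjectiveSpecialLinearGroup (Fin 2) F) (hb : b ≠ 1) (hab : Commute a b)
    (hbc : Commute b c) : Commute a c :=
  ct_trans_of_equiv (ct_pslEquiv h2) (fun a b c => ct_sl2_trans h2 a b c) a b c hb hab hbc

/-- A finite field whose cardinality is a positive power of two has characteristic two. -/
theorem ct_two_eq_zero {F : Type*} [Field F] [Fintype F] {f : ℕ}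
    (hF : Fintype.card F = 2 ^ f) : (2 : F) = 0 := by
  have h := Nat.cast_card_eq_zero F
  rw [hF] at h
  push_cast at h
  exact eq_zero_of_pow_eq_zero h

end Cfsg.Agent.Lib.Helper76.CT
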